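import Cfsg.Agent.H241.Wf.PslPairs
import Cfsg.Agent.H957.T5RowPSL
import Cfsg.Agent.H533.Wf.Kills

/-!
# S3826: the row `PSL_n(q)`, `n ≥ 3`, `3 ∤ q`
-/

set_option autoImplicit false

namespace Cfsg.Agent.H241.WfPsl

universe u v

open Matrix
open Cfsg.Agent.H957.T5V Cfsg.Agent.H957.T5M Cfsg.Agent.H957.T5Tr
open Cfsg.Agent.H199.PslAut
open Cfsg.Agent.ClassicalGeometry.AutPSL.Root
open Cfsg.Agent.ClassicalGeometry.AutPSL.Auto
open Cfsg.Agent.H897.MeetPSL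
open Cfsg.Agent.H903.SylSemi (Ind scal scal_apply)

/-- The middle row for `p = 3`. -/
theorem mrow_PSL3 {F : Type} [Field F] [Fintype F] {n : ℕ} (hn : 3 ≤ n) (h3 : (3 : F) ≠ 0) :
    MRow 3 (Matrix.ProjectiveSpecialLinearGroup (Fin n) F) := by
  have hp := Nat.prime_three
  have : Fact (Nat.Prime 3) := ⟨hp⟩
  have hn2 : 2 ≤ n := by omega
  have : Nonempty (Fin n) := ⟨⟨0, by omega⟩⟩
  have : Nontrivial (Fin n → F) := Function.nontrivial
  refine mrow_of (F := F) hp (π := (pr : Matrix.SpecialLinearGroup (Fin n) F →*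
      Matrix.ProjectiveSpecialLinearGroup (Fin n) F)) pr_surjective (ρ := rho n F) rho_injective
    ?_ (W := fun y => ∃ θ : F ≃+* F, Semi θ y) ?_ ?_ ?_ ?_ ?_
  · intro s
    refine ⟨fun u v => ?_, fun b v => ?_⟩
    · rw [rho_apply, rho_apply, rho_apply, mulVec_add]
    · rw [rho_apply, rho_apply, mulVec_smul]
      rfl
  · rintro y y' ⟨θ, h⟩ ⟨θ', h'⟩
    exact ⟨θ * θ', h.mul h'⟩
  · intro s
    refine ⟨1, fun u v => ?_, fun b v => ?_⟩
    · rw [rho_apply, rho_apply, rho_apply, mulVec_add]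
    · rw [rho_apply, rho_apply, mulVec_smul]
      rfl
  · intro β hβ
    have hP : IsPGroup 3 ↥(Subgroup.zpowers β) :=
      IsPGroup.of_card (n := 1) (by rw [Nat.card_zpowers, hβ, pow_one])
    obtain ⟨g, σ, rfl⟩ := form_of_pgroup hn2 (by omega) hP (Subgroup.mem_zpowers β)
    exact ⟨smap g σ, ⟨σ, (semi_smap g σ).1, (semi_smap g σ).2⟩, ind_smap g σ⟩
  · rintro y ⟨θ, hθ⟩ hy
    obtain ⟨A, rfl⟩ := exists_smap (show Cfsg.Agent.H903.SylSemi.Semi F y θ from ⟨hθ.add, hθ.smul⟩)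
    have h1 : Psi n F A * phi n F θ = 1 :=
      Ind.unique pr_surjective rho_injective (ind_smap A θ) hy
    obtain ⟨⟨u, rfl⟩, h2⟩ := Psi_phi_eq hn2 (g := A) (σ := θ) (τ := 1) (by rw [h1, map_one])
    refine ⟨u, ?_⟩
    ext v : 1
    rw [smap_apply, h2, scal_apply, Cfsg.Agent.H199.PslAut.coe_scal]
    change (scalar (Fin n) (u : F)) *ᵥ v = (u : F) • v
    rw [Matrix.scalar_apply, Matrix.diagonal_const_mulVec]
  · rintro y z ⟨θ, hy⟩ ⟨θ', hz⟩ hyp hyn hzp hzn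
    obtain ⟨g, hg, i, j, h⟩ := mp_main3 (V := Fin n → F) h3
      (by rw [Module.finrank_fintype_fun_eq_card, Fintype.card_fin]; exact hn) hy hyp hyn
      hz hzp hzn
    have hd : (LinearMap.toMatrix' (g : (Fin n → F) →ₗ[F] (Fin n → F))).det = 1 := by
      rw [LinearMap.det_toMatrix', ← LinearEquiv.coe_det, hg, Units.val_one]
    refine ⟨⟨LinearMap.toMatrix' (g : (Fin n → F) →ₗ[F] (Fin n → F)), hd⟩, i, j, ?_⟩
    have hs : rho n F ⟨LinearMap.toMatrix' (g : (Fin n → F) →ₗ[F] (Fin n → F)), hd⟩ = toA g := by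
      ext v : 1
      refine (rho_apply _ v).trans ?_
      change (LinearMap.toMatrix' (g : (Fin n → F) →ₗ[F] (Fin n → F))) *ᵥ v = g v
      rw [LinearMap.toMatrix'_mulVec]
      rfl
    rw [hs]
    exact h

/-- The weak row for `p = 3`: `PSL_n(q)`, `n ≥ 3`, `3 ∤ q`. -/
theorem wrow_PSL3 {K : Type v} [Group K] {F : Type} [Field F] [Fintype F] (h3 : (3 : F) ≠ 0)
    {n : ℕ} (hn : 3 ≤ n) (e : Nonempty (K ≃* Matrix.ProjectiveSpecialLinearGroup (Fin n) F)) :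
    Cfsg.Agent.H533.T5.WRow 3 K := by
  obtain ⟨e⟩ := e
  exact (Cfsg.Agent.H957.T5RowPSL.MRow.congr e (mrow_PSL3 hn h3)).weak

/-- **S3826, the row `PSL_n(q)`, `n ≥ 3`, cross characteristic.** -/
theorem wf_psl_cross {K : Type v} [Group K] [Finite K] [IsSimpleGroup K] {F : Type} [Field F]
    [Fintype F] (h3 : (3 : F) ≠ 0) {n : ℕ} (hn : 3 ≤ n)
    (e : Nonempty (K ≃* Matrix.ProjectiveSpecialLinearGroup (Fin n) F)) :
    Cfsg.Agent.H533.Wf.WfRow.{u, v} 3 K := by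
  have : Fact (Nat.Prime 3) := ⟨Nat.prime_three⟩
  exact Cfsg.Agent.H533.Wf.WfRow.of_wrow (wrow_PSL3 h3 hn e)

end Cfsg.Agent.H241.WfPsl
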