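import Cfsg.Agent.H957.T5U14
import Cfsg.Agent.H241.Wf.PslPairs

/-!
# S3826, PSU rows, `p = 3`: hyperbolic planes (split elements, field automorphisms) and totally
isotropic subspaces
-/

set_option autoImplicit false

namespace Cfsg.Agent.H241.WfPsu

open Cfsg Cfsg.Agent.LieClassical.HermBasic Cfsg.Agent.LieClassical.HermSiegel
open Cfsg.Agent.H957.T5V Cfsg.Agent.H957.T5Conf Cfsg.Agent.H957.T5Pairs Cfsg.Agent.H957.T5Two
  Cfsg.Agent.H957.T5Semi Cfsg.Agent.H957.T5U Cfsg.Agent.H957.T5Main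
open Cfsg.Agent.H177.MeetPSU (rho rho_apply)
open Module

variable {F : Type} [Field F] {n q : ℕ} {σ τ : F ≃+* F} {c d : Equiv.Perm (Fin n → F)}

/-! ### Totally isotropic subspaces of dimension at least 3 -/

theorem up_of_mp3 {K : Type} [Field K] [Finite K] (κ : K → F)
    {X : Type} [AddCommGroup X] [Module K X] [FiniteDimensional K X] {ι : X → (Fin n → F)}
    (hsmul : ∀ (a : K) (x : X), ι (a • x) = κ a • ι x)
    (hinj : Function.Injective ι)
    (hsc : ∀ a : F, (∀ v : X, ∃ w : X, a • ι v = ι w) → ∃ a0 : K, κ a0 = a)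
    (hX : 3 ≤ Module.finrank K X) (hpK : (3 : K) ≠ 0)
    {σ0 τ0 : K ≃+* K} {c0 d0 : Equiv.Perm X} (hc0 : Semi σ0 c0) (hd0 : Semi τ0 d0)
    (hc : Res ι c c0) (hd : Res ι d d0) (hcp : IsScal F (c ^ 3)) (hdp : IsScal F (d ^ 3))
    (hcn : ¬ IsScal K c0) (hdn : ¬ IsScal K d0)
    (hext : ∀ g : X ≃ₗ[K] X, LinearEquiv.det g = 1 → ∃ s : SU n F q, ∀ v, act s (ι v) = ι (g v)) :
    UP q 3 c d := by
  have key : ∀ (x : Equiv.Perm X) (a : F), (∀ v : X, ι (x v) = a • ι v) → IsScal K x := by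
    intro x a h
    obtain ⟨a0, ha0⟩ := hsc a (fun v => ⟨x v, (h v).symm⟩)
    refine ⟨a0, fun v => hinj ?_⟩
    rw [h, hsmul, ha0]
  have hscp : ∀ {e : Equiv.Perm (Fin n → F)} {e0 : Equiv.Perm X}, Res ι e e0 →
      IsScal F (e ^ 3) → IsScal K (e0 ^ 3) := by
    rintro e e0 he ⟨a, ha⟩
    exact key _ a (fun v => by rw [← he.pow 3, ha])
  obtain ⟨g, hg, i, j, h⟩ := Cfsg.Agent.H241.WfPsl.mp_main3 hpK hX hc0 (hscp hc hcp) hcn
    hd0 (hscp hd hdp) hdn
  obtain ⟨s, hs⟩ := hext g hg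
  refine up_of_res (s := s) (g0 := toA g) (i := i) (j := j) hc hd (fun v => by
    rw [rho_apply, hs, toA_apply]) ?_
  rintro k ⟨a, ha⟩
  exact h k (key _ a ha)

variable [Fintype F]

theorem up_ti_same3 (hF : Fintype.card F = q ^ 2)
    (hpF : (3 : F) ≠ 0) (hc : SI q σ c) (hd : SI q τ d) {U : Submodule F (Fin n → F)}
    (hU : 3 ≤ Module.finrank F U) (h0 : ∀ u ∈ U, ∀ v ∈ U, hermForm n F q u v = 0)
    (hcU : ∀ u ∈ U, c u ∈ U) (hdU : ∀ u ∈ U, d u ∈ U)
    (hcn : ¬ ∃ t : F, ∀ u ∈ U, c u = t • u) (hdn : ¬ ∃ t : F, ∀ u ∈ U, d u = t • u)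
    (hcp : IsScal F (c ^ 3)) (hdp : IsScal F (d ^ 3)) : UP q 3 c d := by
  classical
  obtain ⟨c0, hc0⟩ := exists_res (ι := ((↑) : U → (Fin n → F))) (x := c) Subtype.val_injective
    (fun v => ⟨⟨c v, hcU v v.2⟩, rfl⟩)
  obtain ⟨d0, hd0⟩ := exists_res (ι := ((↑) : U → (Fin n → F))) (x := d) Subtype.val_injective
    (fun v => ⟨⟨d v, hdU v v.2⟩, rfl⟩)
  have hsemi : ∀ {σ : F ≃+* F} {c : Equiv.Perm (Fin n → F)} {c0 : Equiv.Perm U}, SI q σ c →
      Res ((↑) : U → (Fin n → F)) c c0 → Semi σ c0 := by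
    intro σ c c0 hc hc0
    refine ⟨fun u v => Subtype.ext ?_, fun a u => Subtype.ext ?_⟩
    · rw [Submodule.coe_add, ← hc0, ← hc0, ← hc0, Submodule.coe_add, hc.semi.add]
    · rw [Submodule.coe_smul, ← hc0, ← hc0, Submodule.coe_smul, hc.semi.smul]
  refine up_of_mp3 (K := F) (fun a => a) (X := U) (ι := ((↑) : U → (Fin n → F)))
    (fun a x => Submodule.coe_smul a x) Subtype.val_injective (fun a _ => ⟨a, rfl⟩) hU hpF
    (hsemi hc hc0) (hsemi hd hd0) hc0 hd0 hcp hdp ?_ ?_ ?_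
  · rintro ⟨t, ht⟩
    exact hcn ⟨t, fun u hu => by
      have := hc0 ⟨u, hu⟩
      rw [ht] at this
      exact this⟩
  · rintro ⟨t, ht⟩
    exact hdn ⟨t, fun u hu => by
      have := hd0 ⟨u, hu⟩
      rw [ht] at this
      exact this⟩
  · intro g hg
    let B := Module.finBasis F U
    have hBli : LinearIndependent F (fun i => ((B i : U) : Fin n → F)) :=
      B.linearIndependent.map' U.subtype (Submodule.ker_subtype U)
    have hA : (LinearMap.toMatrix B B (g : U →ₗ[F] U)).det = 1 := by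
      rw [LinearMap.det_toMatrix, ← LinearEquiv.coe_det, hg, Units.val_one]
    obtain ⟨s, hs⟩ := ti_ext (q := q) hF (by omega) hBli (fun i j => h0 _ (B i).2 _ (B j).2) hA
    have h1 : ∀ j, act s (B j : Fin n → F) = (g (B j) : U) := by
      intro j
      rw [hs]
      have h2 := B.sum_repr (g (B j))
      have h3 := congrArg (fun x : U => (x : Fin n → F)) h2
      simp only [Submodule.coe_sum, Submodule.coe_smul] at h3
      rw [← h3]
      refine Finset.sum_congr rfl fun i _ => ?_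
      rw [LinearMap.toMatrix_apply]
      rfl
    refine ⟨s, fun v => ?_⟩
    have h4 := B.sum_repr v
    have h5 : (v : Fin n → F) = ∑ i, B.repr v i • ((B i : U) : Fin n → F) := by
      conv_lhs => rw [← h4]
      rw [Submodule.coe_sum]
      rfl
    have h6 : g v = ∑ i, B.repr v i • g (B i) := by
      conv_lhs => rw [← h4]
      rw [map_sum]
      exact Finset.sum_congr rfl fun i _ => map_smul _ _ _
    rw [h6, h5, act_sum, Submodule.coe_sum]
    exact Finset.sum_congr rfl fun i _ => by rw [act_smul, h1, Submodule.coe_smul]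

theorem up_ti3 (hF : Fintype.card F = q ^ 2)
    (hpF : (3 : F) ≠ 0) (hc : SI q σ c) (hd : SI q τ d) {m : ℕ} (hm : 3 ≤ m)
    (hcm : TIm q m c) (hdm : TIm q m d)
    (hcp : IsScal F (c ^ 3)) (hdp : IsScal F (d ^ 3)) : UP q 3 c d := by
  classical
  obtain ⟨U, hUm, hU0, hcU, hcn⟩ := hcm
  obtain ⟨W, hWm, hW0, hdW, hdn⟩ := hdm
  let A := Module.finBasisOfFinrankEq F W hWm
  let B := Module.finBasisOfFinrankEq F U hUm
  have hAli : LinearIndependent F (fun i => ((A i : W) : Fin n → F)) :=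
    A.linearIndependent.map' W.subtype (Submodule.ker_subtype W)
  have hBli : LinearIndependent F (fun i => ((B i : U) : Fin n → F)) :=
    B.linearIndependent.map' U.subtype (Submodule.ker_subtype U)
  obtain ⟨s, hs⟩ := ti_move (q := q) hF (by omega) hAli hBli (fun i j => hW0 _ (A i).2 _ (A j).2)
    (fun i j => hU0 _ (B i).2 _ (B j).2)
  have hle : Submodule.span F (Set.range fun i => ((B i : U) : Fin n → F)) ≤ U := by
    rw [Submodule.span_le]
    rintro _ ⟨i, rfl⟩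
    exact (B i).2
  let L : (Fin n → F) →ₗ[F] (Fin n → F) :=
    { toFun := act s
      map_add' := act_add s
      map_smul' := fun a v => act_smul s a v }
  have hmap : W.map L = U := by
    apply Submodule.eq_of_le_of_finrank_eq
    · rintro _ ⟨w, hw, rfl⟩
      have h4 := A.sum_repr ⟨w, hw⟩
      have h5 : w = ∑ i, A.repr ⟨w, hw⟩ i • ((A i : W) : Fin n → F) := by
        have := congrArg (fun x : W => (x : Fin n → F)) h4
        simp only [Submodule.coe_sum, Submodule.coe_smul] at this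
        exact this.symm
      rw [h5]
      change act s _ ∈ U
      rw [act_sum]
      refine Submodule.sum_mem _ fun i _ => ?_
      rw [act_smul]
      exact Submodule.smul_mem _ _ (hle (hs i))
    · rw [← (Submodule.equivMapOfInjective L (act_injective s) W).finrank_eq, hWm, hUm]
  have hd2 : ∀ u, (rho n F q s * d * (rho n F q s)⁻¹) (act s u) = act s (d u) := by
    intro v
    rw [Equiv.Perm.mul_apply, Equiv.Perm.mul_apply]
    have h1 : (rho n F q s)⁻¹ (act s v) = v := by rw [← rho_apply, inv_apply_self]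
    rw [h1, rho_apply]
  refine UP.conj_right s (up_ti_same3 hF hpF hc (hd.conj s) (by omega) hU0 hcU ?_ hcn ?_
    hcp ?_)
  · intro u hu
    rw [← hmap] at hu ⊢
    obtain ⟨w, hw, rfl⟩ := hu
    exact ⟨d w, hdW w hw, (hd2 w).symm⟩
  · rintro ⟨t, ht⟩
    apply hdn
    refine ⟨t, fun w hw => act_injective s ?_⟩
    have := ht (act s w) (by rw [← hmap]; exact ⟨w, hw, rfl⟩)
    rwa [hd2, ← act_smul] at this
  · obtain ⟨a, ha⟩ := hdp
    refine ⟨a, fun v => ?_⟩
    rw [conj_pow, Equiv.Perm.mul_apply, Equiv.Perm.mul_apply, ha, rho_apply, act_smul,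
      ← rho_apply, apply_inv_self]

/-! ### Hyperbolic planes -/

/-- A hyperbolic pair of eigenvectors with eigenvalues `a`, `b`. -/
structure Hyp (q : ℕ) (ε : F) (c : Equiv.Perm (Fin n → F)) (a b : F) (e f : Fin n → F) : Prop where
  ee : hermForm n F q e e = 0
  ff : hermForm n F q f f = 0
  ef : hermForm n F q e f = ε
  ce : c e = a • e
  cf : c f = b • f

/-- Products on a common hyperbolic plane. -/
theorem up_hyp (hF : Fintype.card F = q ^ 2) (hn : 3 ≤ n) {ε : F} (hε : ε ≠ 0)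
    (hεq : ε ^ q = -ε) (hc : SI q σ c) (hd : SI q τ d) {a b a' b' : F} {e f e' f' : Fin n → F}
    (h : Hyp q ε c a b e f) (h' : Hyp q ε d a' b' e' f') {k : F} (hk : k ^ q = k)
    (hx : ∀ x : Equiv.Perm (Fin n → F), Semi (σ * τ) x → x e = (σ b' * a) • e →
      x f = (σ a' * b) • f + (σ (a' * k - τ k * b') * a) • e →
      ∀ m : ℕ, ¬ IsScal F (x ^ 3 ^ m)) :
    UP q 3 c d := by
  have hfe : hermForm n F q f e = -ε := by rw [herm_swap hF e f, h.ef, hεq]
  have hfe' : hermForm n F q f' e' = -ε := by rw [herm_swap hF e' f', h'.ef, hεq]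
  set g : Fin n → F := -(f + k • e) with hg
  have hgneg : g = (-1 : F) • (f + k • e) := by rw [hg]; module
  have heg : hermForm n F q e g = -ε := by
    rw [hgneg, herm_smul_right, herm_add_right hF, herm_smul_right, h.ee, h.ef, neg_one_pow_q hF]
    ring
  have hgg : hermForm n F q g g = 0 := by
    rw [hgneg, herm_smul_right, herm_smul_left, herm_add_right hF, herm_add_left, herm_add_left,
      herm_smul_right, herm_smul_left, herm_smul_left, herm_smul_right, h.ee, h.ff, h.ef, hfe, hk]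
    ring
  have hnε : -ε ≠ 0 := neg_ne_zero.2 hε
  have hlib := li_of_hyp hF hnε h.ee hgg heg
  have hlia := li_of_hyp hF hnε h'.ff h'.ee hfe'
  obtain ⟨z, hz, hzb⟩ := exists_z hF hlib (by omega) (e := e) (f := g)
    (Submodule.subset_span ⟨0, rfl⟩) (Submodule.subset_span ⟨1, rfl⟩) h.ee (by rwa [heg])
  refine up_of_family hF hd hlia hlib ?_ hz hzb ?_
  · intro i j
    fin_cases i <;> fin_cases j
    · exact h'.ff.trans h.ee.symm
    · exact hfe'.trans heg.symm
    · change hermForm n F q e' f' = hermForm n F q g e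
      rw [herm_swap hF e g, heg, h'.ef, neg_pow_q hF, hεq, neg_neg]
    · exact h'.ee.trans hgg.symm
  · intro d' hd' s hs hds m
    have s0 : act s f' = e := hs 0
    have s1 : act s e' = g := hs 1
    have h1 : d' e = b' • e := by rw [← s0, hds, h'.cf, act_smul]
    have h2 : d' g = a' • g := by rw [← s1, hds, h'.ce, act_smul]
    have h3 : d' f = a' • f + (a' * k - τ k * b') • e := by
      have h4 : f = -g + (-k) • e := by rw [hg]; module
      have h5 : d' f = -(a' • g) + (τ (-k)) • b' • e := by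
        conv_lhs => rw [h4]
        rw [hd'.semi.add, hd'.semi.neg, hd'.semi.smul, h1, h2]
      rw [h5, hg, map_neg]
      module
    have hsx : Semi (σ * τ) (c * d') := hc.semi.mul hd'.semi
    refine hx (c * d') hsx ?_ ?_ m
    · rw [Equiv.Perm.mul_apply, h1, hc.semi.smul, h.ce, smul_smul]
    · rw [Equiv.Perm.mul_apply, h3, hc.semi.add, hc.semi.smul, hc.semi.smul, h.ce, h.cf, smul_smul,
        smul_smul]

theorem three_cast_pow (h3 : (3 : F) ≠ 0) (m : ℕ) : ((3 ^ m : ℕ) : F) ≠ 0 := by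
  rw [Nat.cast_pow]
  exact pow_ne_zero _ (by exact_mod_cast h3)

theorem ne_zero_of_hyp {ε : F} (hε : ε ≠ 0) {a b : F} {e f : Fin n → F}
    (h : Hyp q ε c a b e f) : e ≠ 0 := by
  rintro rfl
  apply hε
  rw [← h.ef, herm_zero_left]

/-- Two split elements. -/
theorem up_SS (hF : Fintype.card F = q ^ 2) (hn : 3 ≤ n) (h3 : (3 : F) ≠ 0) {ε : F} (hε : ε ≠ 0)
    (hεq : ε ^ q = -ε) (hc : SI q (1 : F ≃+* F) c) (hd : SI q (1 : F ≃+* F) d) {ω : F}
    (hω : ω ^ 2 + ω + 1 = 0) {e f e' f' : Fin n → F}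
    (h : Hyp q ε c ω ω⁻¹ e f) (h' : Hyp q ε d ω ω⁻¹ e' f') : UP q 3 c d := by
  have hω0 : ω ≠ 0 := by
    rintro rfl
    simp at hω
  refine up_hyp hF hn hε hεq hc hd h h' (one_pow q) ?_
  intro x hx he hf m
  simp only [RingAut.one_apply, mul_one, one_mul, map_one] at he hf
  rw [inv_mul_cancel₀ hω0, one_smul] at he
  rw [mul_inv_cancel₀ hω0, one_smul] at hf
  have hk : (ω - ω⁻¹) * ω ≠ 0 := by
    rw [sub_mul, inv_mul_cancel₀ hω0]
    intro h0
    -- `ω² = 1` and `ω² + ω + 1 = 0`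
    have h1 : ω = -2 := by linear_combination hω - h0
    rw [h1] at h0
    apply h3
    linear_combination h0
  have he0 : ((ω - ω⁻¹) * ω) • e ≠ 0 := smul_ne_zero hk (ne_zero_of_hyp hε h)
  refine not_scal_jordan (v0 := ((ω - ω⁻¹) * ω) • e) (v1 := f) hx he0 ?_ hf (three_cast_pow h3 m)
  rw [hx.smul, he]
  rfl

/-- Two field automorphisms. -/
theorem up_CC (hF : Fintype.card F = q ^ 2) (hn : 3 ≤ n) (h3 : (3 : F) ≠ 0) {ε : F} (hε : ε ≠ 0)
    (hεq : ε ^ q = -ε) (hc : SI q σ c) (hd : SI q (σ⁻¹) d) {e f e' f' : Fin n → F}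
    (h : Hyp q ε c 1 1 e f) (h' : Hyp q ε d 1 1 e' f') {k : F} (hk : k ^ q = k)
    (hσk : σ k ≠ k) : UP q 3 c d := by
  refine up_hyp hF hn hε hεq hc hd h h' hk ?_
  intro x hx he hf m
  have h1 : σ ((σ⁻¹ : F ≃+* F) k) = k := RingEquiv.apply_symm_apply σ k
  simp only [map_one, mul_one, one_mul, one_smul, map_sub, h1] at he hf
  have hk' : σ k - k ≠ 0 := sub_ne_zero.2 hσk
  have he0 : (σ k - k) • e ≠ 0 := smul_ne_zero hk' (ne_zero_of_hyp hε h)
  rw [mul_inv_cancel] at hx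
  refine not_scal_jordan (v0 := (σ k - k) • e) (v1 := f) hx he0 ?_ hf (three_cast_pow h3 m)
  rw [hx.smul, he]
  rfl

/-- The twisted sum can be chosen in the small field. -/
theorem exists_twisted_small (hF : Fintype.card F = q ^ 2) (hσ : orderOf σ = 3) {ζ : F}
    (hζ0 : ζ ≠ 0) {t : F} (htσ : σ t = t) (ht : t ^ q ≠ t) :
    ∃ k : F, k ^ q = k ∧ ∑ i ∈ Finset.range 3, ζ ^ (3 - 1 - i) * (σ ^ i) k ≠ 0 := by
  obtain ⟨k, hk⟩ := exists_twisted_sum (σ := σ) (by norm_num) hσ hζ0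
  by_contra hcon
  push Not at hcon
  obtain ⟨a, b, hab, -⟩ := Kdec hF ht k
  apply hk
  have hi : ∀ i : ℕ, (σ ^ i) t = t := by
    intro i
    induction i with
    | zero => rfl
    | succ i ih =>
      rw [pow_succ]
      change (σ ^ i) (σ t) = t
      rw [htσ, ih]
  have h1 : ∑ i ∈ Finset.range 3, ζ ^ (3 - 1 - i) * (σ ^ i) k
      = ∑ i ∈ Finset.range 3, ζ ^ (3 - 1 - i) * (σ ^ i) (a : F)
        + t * ∑ i ∈ Finset.range 3, ζ ^ (3 - 1 - i) * (σ ^ i) (b : F) := by
    rw [Finset.mul_sum, ← Finset.sum_add_distrib]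
    refine Finset.sum_congr rfl fun i _ => ?_
    rw [hab, map_add, map_mul, hi]
    ring
  rw [h1, hcon _ a.2, hcon _ b.2, mul_zero, add_zero]

/-- A field automorphism and a split element. -/
theorem up_CS (hF : Fintype.card F = q ^ 2) (hn : 3 ≤ n) (h3 : (3 : F) ≠ 0) {t : F}
    (htσ : σ t = t) (ht : t ^ q ≠ t) (hσ : orderOf σ = 3) (hc : SI q σ c)
    (hd : SI q (1 : F ≃+* F) d) {ω : F} (hω : ω ^ 2 + ω + 1 = 0) (hωq : ω ^ q = ω)
    {e f e' f' : Fin n → F}
    (h : Hyp q (t ^ q - t) c 1 1 e f) (h' : Hyp q (t ^ q - t) d ω ω⁻¹ e' f') : UP q 3 c d := by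
  have hε : t ^ q - t ≠ 0 := sub_ne_zero.2 ht
  have hεq : (t ^ q - t) ^ q = -(t ^ q - t) := by
    rw [sub_pow_q hF, pow_q_pow_q hF]; ring
  have hω0 : ω ≠ 0 := by
    rintro rfl
    simp at hω
  have hω3 : ω ^ 3 = 1 := by linear_combination (ω - 1) * hω
  have hσ3 : σ ^ 3 = 1 := by rw [← hσ, pow_orderOf_eq_one]
  have hσω : σ ω = ω := fixed_of_root Nat.prime_three hσ3 hω3
  -- choose `k`
  obtain ⟨k0, hk0q, hk0⟩ := exists_twisted_small hF hσ (ζ := ω ^ 2) (pow_ne_zero _ hω0) htσ ht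
  have hK : (ω - ω⁻¹) * ω ≠ 0 := by
    rw [sub_mul, inv_mul_cancel₀ hω0]
    intro h0
    have h1 : ω = -2 := by linear_combination hω - h0
    rw [h1] at h0
    apply h3
    linear_combination h0
  obtain ⟨k1, hk1⟩ := σ.surjective (((ω - ω⁻¹) * ω)⁻¹ * k0)
  have hk1q : k1 ^ q = k1 := by
    apply σ.injective
    rw [map_pow, hk1, mul_pow, inv_pow, mul_pow, sub_pow_q hF, inv_pow, hωq, hk0q]
  refine up_hyp hF hn hε hεq hc hd h h' hk1q ?_
  intro x hx he hf m
  have hx' : Semi σ x := by rwa [mul_one] at hx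
  simp only [RingAut.one_apply, mul_one, map_mul, map_sub, map_inv₀, hσω] at he hf
  have hf' : x f = ω • f + (ω⁻¹ * k0) • e := by
    rw [hf]
    congr 2
    have h5 : (ω - ω⁻¹) * ω * σ k1 = k0 := by rw [hk1, mul_inv_cancel_left₀ hK]
    rw [← h5]
    field_simp
  -- scale by `ω`
  set y := smulA (Units.mk0 ω hω0) x with hy
  have hys : Semi σ y := hx'.smulA _
  have hye : y e = e := by
    rw [hy, smulA_apply, Units.val_mk0, he, smul_smul, mul_inv_cancel₀ hω0, one_smul]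
  have hyf : y f = ω ^ 2 • f + k0 • e := by
    rw [hy, smulA_apply, Units.val_mk0, hf', smul_add, smul_smul, smul_smul, ← pow_two,
      mul_inv_cancel_left₀ hω0]
  have hscl : Scl F y x := scl_smulA _ x
  have hσω2 : σ (ω ^ 2) = ω ^ 2 := by rw [map_pow, hσω]
  have hy3 := pow_tri_sum hys hσω2 hye hyf 3
  have hy0 := pow_fix hye 3
  have hω6 : (ω ^ 2) ^ 3 = 1 := by rw [← pow_mul, mul_comm, pow_mul, hω3, one_pow]
  rw [hω6, one_smul] at hy3
  have hsy : Semi (1 : F ≃+* F) (y ^ 3) := by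
    have := hys.pow 3
    rwa [hσ3] at this
  set S := ∑ i ∈ Finset.range 3, (ω ^ 2) ^ (3 - 1 - i) * (σ ^ i) k0 with hS
  have hns : ∀ m : ℕ, ¬ IsScal F (y ^ 3 ^ m) := by
    intro m hm
    -- pass to `y ^ 3`
    have h6 : IsScal F ((y ^ 3) ^ 3 ^ m) := by
      obtain ⟨a, ha⟩ := hm
      rw [← pow_mul, mul_comm, pow_mul]
      have : ∀ j : ℕ, IsScal F ((y ^ 3 ^ m) ^ j) := by
        intro j
        induction j with
        | zero => exact ⟨1, fun v => by simp⟩
        | succ j ih =>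
          obtain ⟨b, hb⟩ := ih
          refine ⟨b * a, fun v => ?_⟩
          rw [pow_succ, Equiv.Perm.mul_apply, hb, ha, smul_smul]
      exact this 3
    refine not_scal_jordan (v0 := S • e) (v1 := f) hsy
      (smul_ne_zero hk0 (ne_zero_of_hyp hε h)) ?_ ?_ (three_cast_pow h3 m) h6
    · rw [hsy.smul, hy0]
      rfl
    · exact hy3
  intro hcon
  exact hns m (((hscl.pow hx' (3 ^ m)).isScal_iff).2 hcon)

end Cfsg.Agent.H241.WfPsu
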