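import Cfsg.Agent.H241.Wf.PsuA

/-!
# S3826, PSU rows, `p = 3`: existence of hyperbolic pairs; elements diagonal in an orthonormal basis
-/

set_option autoImplicit false

namespace Cfsg.Agent.H241.WfPsu

open Cfsg Cfsg.Agent.LieClassical.HermBasic Cfsg.Agent.LieClassical.HermSiegel
open Cfsg.Agent.H957.T5V Cfsg.Agent.H957.T5Conf Cfsg.Agent.H957.T5Pairs Cfsg.Agent.H957.T5Two
  Cfsg.Agent.H957.T5Semi Cfsg.Agent.H957.T5U Cfsg.Agent.H957.T5Main
open Cfsg.Agent.H177.MeetPSU (rho rho_apply)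
open Module

variable {F : Type} [Field F] [Fintype F] {n q : ℕ} {σ τ : F ≃+* F} {c d : Equiv.Perm (Fin n → F)}

theorem hyp_swap (hF : Fintype.card F = q ^ 2) {ε : F} (hεq : ε ^ q = -ε) {a b : F}
    {e f : Fin n → F} (hc : SI q (1 : F ≃+* F) c) (h : Hyp q ε c a b e f) :
    Hyp q ε c b a f ((-1 : F) • e) where
  ee := h.ff
  ff := by rw [herm_smul_left, herm_smul_right, h.ee, mul_zero, mul_zero]
  ef := by rw [herm_smul_right, herm_swap hF e f, h.ef, hεq, neg_one_pow_q hF]; ring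
  ce := h.cf
  cf := by rw [hc.semi.smul, h.ce, RingAut.one_apply, smul_comm]

/-- Split elements: a hyperbolic pair of eigenvectors. -/
theorem hyp_split_aux (hF : Fintype.card F = q ^ 2) (hpq : 3 ∣ q - 1) (h3 : (3 : F) ≠ 0)
    (hc : SI q (1 : F ≃+* F) c) (hcp : c ^ 3 = 1) (hns : ¬ IsScal F c) {ε : F} (hε : ε ≠ 0) :
    ∃ e f ζ, ζ ^ 3 = 1 ∧ ζ ≠ 1 ∧ Hyp q ε c ζ ζ⁻¹ e f := by
  have hp := Nat.prime_three
  have hpF : ((3 : ℕ) : F) ≠ 0 := by exact_mod_cast h3
  have : Fact (Nat.Prime 3) := ⟨hp⟩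
  have hpF1 : 3 ∣ Nat.card F - 1 := by
    rw [Nat.card_eq_fintype_card, hF]
    have h1 : q ^ 2 - 1 = (q + 1) * (q - 1) := by
      have := Nat.sq_sub_sq q 1
      rwa [one_pow] at this
    rw [h1]
    exact Dvd.dvd.mul_left hpq _
  obtain ⟨f, hf, hfc⟩ := exists_end hc.semi
  have hfp : (f : Module.End F (Fin n → F)) ^ 3 = ((1 : F) ^ 3) • 1 := by
    refine LinearMap.ext fun v => ?_
    rw [pow_end hf, hcp, one_pow, one_smul]
    rfl
  obtain ⟨b, d, hb⟩ := Cfsg.Agent.H957.T5Lin.exists_eigenbasis (κ := Fin n) hpF1 one_ne_zero hfp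
    (by rw [finrank_fin_fun, Fintype.card_fin])
  have hbc : ∀ i, c (b i) = d i • b i := fun i => by rw [← hf]; exact hb i
  obtain ⟨i, hi⟩ : ∃ i, d i ≠ 1 := by
    by_contra hcon
    push Not at hcon
    apply hns
    refine ⟨1, fun v => ?_⟩
    rw [← hf, ← b.sum_repr v, map_sum, Finset.smul_sum]
    refine Finset.sum_congr rfl fun i _ => ?_
    rw [map_smul, hf, hbc, hcon, one_smul]
    exact (one_smul F _).symm
  set ζ := d i with hζ
  set e := b i with he
  have he0 : e ≠ 0 := b.ne_zero i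
  have hζp : ζ ^ 3 = 1 := eig_root hc hcp he0 (hbc i)
  have hζ0 : ζ ≠ 0 := by
    intro h
    rw [h, zero_pow hp.ne_zero] at hζp
    exact zero_ne_one hζp
  have hζq : ζ ^ q = ζ := by
    obtain ⟨m, hm⟩ := hpq
    have h1 := q_pos hF
    have h2 : q = 3 * m + 1 := by omega
    rw [h2, pow_succ, pow_mul, hζp, one_pow, one_mul]
  have hζ2 : ζ * ζ ≠ 1 := by
    intro h
    have h1 : ζ = 1 := by
      calc ζ = ζ * (ζ * ζ) := by rw [h, mul_one]
        _ = ζ ^ 3 := by ring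
        _ = 1 := hζp
    exact hi h1
  have hce : c e = ζ • e := hbc i
  have hee : hermForm n F q e e = 0 := by
    have h1 := hc.herm e e
    rw [hce, herm_smul_left, herm_smul_right, hζq] at h1
    have h2 : (ζ * ζ - 1) * hermForm n F q e e = 0 := by
      rw [sub_mul, one_mul, mul_assoc, h1]
      exact sub_self _
    exact (mul_eq_zero.1 h2).resolve_left (sub_ne_zero.2 hζ2)
  obtain ⟨w, hw⟩ := exists_herm_ne_zero hF he0
  set g : Fin n → F := ∑ m ∈ Finset.range 3, ζ ^ m • (c ^ m) w with hg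
  have hcg : c g = ζ⁻¹ • g := by
    have h1 : ζ • c g = g := by
      have h2 : c g = ∑ m ∈ Finset.range 3, ζ ^ m • (c ^ (m + 1)) w := by
        rw [hg, ← hf, map_sum]
        refine Finset.sum_congr rfl fun m _ => ?_
        rw [map_smul, hf, pow_succ', Equiv.Perm.mul_apply]
      have h3 : ζ • c g = ∑ m ∈ Finset.range 3, ζ ^ (m + 1) • (c ^ (m + 1)) w := by
        rw [h2, Finset.smul_sum]
        refine Finset.sum_congr rfl fun m _ => ?_
        rw [smul_smul, ← pow_succ']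
      have h4 := Finset.sum_range_succ' (fun m => ζ ^ m • (c ^ m) w) 3
      have h5 := Finset.sum_range_succ (fun m => ζ ^ m • (c ^ m) w) 3
      rw [h5] at h4
      simp only [hζp, hcp, pow_zero] at h4
      rw [h3]
      exact (add_right_cancel h4).symm
    conv_rhs => rw [← h1]
    rw [smul_smul, inv_mul_cancel₀ hζ0, one_smul]
  have heg : hermForm n F q e g ≠ 0 := by
    have h1 : ∀ m : ℕ, hermForm n F q e (ζ ^ m • (c ^ m) w) = hermForm n F q e w := by
      intro m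
      have h2 := (hc.pow m).herm e w
      rw [eig_pow hc hce, herm_smul_left, one_pow] at h2
      rw [herm_smul_right, ← pow_mul, mul_comm m q, pow_mul, hζq, h2]
      rfl
    rw [hg, herm_sum_right hF, Finset.sum_congr rfl fun m _ => h1 m, Finset.sum_const,
      Finset.card_range, nsmul_eq_mul]
    exact mul_ne_zero hpF hw
  have hgg : hermForm n F q g g = 0 := by
    have h1 := hc.herm g g
    rw [hcg, herm_smul_left, herm_smul_right, inv_pow, hζq] at h1
    have h2 : (ζ⁻¹ * ζ⁻¹ - 1) * hermForm n F q g g = 0 := by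
      rw [sub_mul, one_mul, mul_assoc, h1]
      exact sub_self _
    refine (mul_eq_zero.1 h2).resolve_left (sub_ne_zero.2 fun h3 => hζ2 ?_)
    rw [← mul_inv, inv_eq_one] at h3
    exact h3
  set γ := hermForm n F q e g with hγ
  refine ⟨e, ((ε / γ) ^ q) • g, ζ, hζp, hi, ⟨hee, ?_, ?_, hce, ?_⟩⟩
  · rw [herm_smul_left, herm_smul_right, hgg, mul_zero, mul_zero]
  · rw [herm_smul_right, pow_q_pow_q hF, ← hγ, div_mul_cancel₀ _ heg]
  · rw [hc.semi.smul, hcg, RingAut.one_apply, smul_comm]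

/-- Cube roots of unity. -/
theorem root_cases {ω ζ : F} (hω : ω ^ 2 + ω + 1 = 0) (hζ : ζ ^ 3 = 1) (h1 : ζ ≠ 1) :
    ζ = ω ∨ ζ = ω⁻¹ := by
  have hω0 : ω ≠ 0 := by
    rintro rfl
    simp at hω
  have h2 : (ζ - ω) * (ζ * ω - 1) = 0 := by
    have h4 : ζ ^ 2 + ζ + 1 = 0 := by
      have h5 : (ζ - 1) * (ζ ^ 2 + ζ + 1) = 0 := by linear_combination hζ
      exact (mul_eq_zero.1 h5).resolve_left (sub_ne_zero.2 h1)
    linear_combination ω * h4 - ζ * hω
  rcases mul_eq_zero.1 h2 with h | h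
  · exact Or.inl (sub_eq_zero.1 h)
  · exact Or.inr (eq_inv_of_mul_eq_one_left (sub_eq_zero.1 h))

theorem hyp_split (hF : Fintype.card F = q ^ 2) (hpq : 3 ∣ q - 1) (h3 : (3 : F) ≠ 0)
    (hc : SI q (1 : F ≃+* F) c) (hcp : c ^ 3 = 1) (hns : ¬ IsScal F c) {ε : F} (hε : ε ≠ 0)
    (hεq : ε ^ q = -ε) {ω : F} (hω : ω ^ 2 + ω + 1 = 0) :
    ∃ e f, Hyp q ε c ω ω⁻¹ e f := by
  obtain ⟨e, f, ζ, hζ, h1, h⟩ := hyp_split_aux hF hpq h3 hc hcp hns hε
  rcases root_cases hω hζ h1 with rfl | rfl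
  · exact ⟨e, f, h⟩
  · rw [inv_inv] at h
    exact ⟨_, _, hyp_swap hF hεq hc h⟩

/-- Field automorphisms: a fixed hyperbolic pair. -/
theorem hyp_field (hF : Fintype.card F = q ^ 2) (hσ : orderOf σ = 3) (hc : SI q σ c)
    (hcp : c ^ 3 = 1) (hn : 2 ≤ n) {t : F} (htσ : σ t = t) :
    ∃ e f, Hyp q (t ^ q - t) c 1 1 e f := by
  obtain ⟨b, hb, hcb⟩ := exists_onb_fix hF Nat.prime_three (by norm_num) hσ hc hcp 2 hn
  obtain ⟨a, ha0, haσ, ha⟩ := norm_fix hF Nat.prime_three (by norm_num) hσ (a := -1)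
    (neg_ne_zero.2 one_ne_zero) (by rw [map_neg, map_one]) (neg_one_pow_q hF)
  have h0 : hermForm n F q (b 0) (b 0) = 1 := by rw [hb]; simp
  have h1 : hermForm n F q (b 1) (b 1) = 1 := by rw [hb]; simp
  have h01 : hermForm n F q (b 0) (b 1) = 0 := by rw [hb]; simp
  have h10 : hermForm n F q (b 1) (b 0) = 0 := by rw [hb]; simp
  refine ⟨b 0 + a • b 1, t • b 0 + (a * t ^ q) • b 1, ⟨?_, ?_, ?_, ?_, ?_⟩⟩
  · simp only [herm_add_left, herm_add_right hF, herm_smul_left, herm_smul_right, h0, h1, h01, h10]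
    linear_combination ha
  · simp only [herm_add_left, herm_add_right hF, herm_smul_left, herm_smul_right, h0, h1, h01, h10,
      mul_pow, pow_q_pow_q hF]
    linear_combination (t ^ q * t) * ha
  · simp only [herm_add_left, herm_add_right hF, herm_smul_left, herm_smul_right, h0, h1, h01, h10,
      mul_pow, pow_q_pow_q hF]
    linear_combination t * ha
  · rw [hc.semi.add, hc.semi.smul, hcb, hcb, haσ, one_smul]
  · rw [hc.semi.add, hc.semi.smul, hc.semi.smul, hcb, hcb, map_mul, map_pow, htσ, haσ, one_smul]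

/-- A primitive cube root of unity. -/
theorem exists_omega (hF : Fintype.card F = q ^ 2) (hq : ¬ 3 ∣ q) :
    ∃ ω : F, ω ^ 2 + ω + 1 = 0 := by
  have : Fact (Nat.Prime 3) := ⟨Nat.prime_three⟩
  have h1 : 3 ∣ Nat.card F - 1 := by
    rw [Nat.card_eq_fintype_card, hF]
    have h2 : q ^ 2 - 1 = (q + 1) * (q - 1) := by
      have := Nat.sq_sub_sq q 1
      rwa [one_pow] at this
    rw [h2]
    have h0 := q_pos hF
    have h4 : q % 3 = 1 ∨ q % 3 = 2 := by omega
    rcases h4 with h4 | h4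
    · exact Dvd.dvd.mul_left (by omega) _
    · exact Dvd.dvd.mul_right (by omega) _
  obtain ⟨ω, hω⟩ := Cfsg.Agent.H957.T5Lin.exists_prim h1
  refine ⟨ω, ?_⟩
  have h2 : (ω - 1) * (ω ^ 2 + ω + 1) = 0 := by
    have := hω.pow_eq_one
    linear_combination this
  exact (mul_eq_zero.1 h2).resolve_left (sub_ne_zero.2 (hω.ne_one (by norm_num)))

/-! ### Diagonal elements in dimension at least 4 -/

/-- The data used in dimension `≥ 4`: an isotropic fixed vector `v0`, a unit eigenvector `v1`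
orthogonal to it with eigenvalue `ζ`, and a non-isotropic vector orthogonal to both. -/
structure AD (q : ℕ) (c : Equiv.Perm (Fin n → F)) (ζ : F) (v0 v1 z : Fin n → F) : Prop where
  h00 : hermForm n F q v0 v0 = 0
  h11 : hermForm n F q v1 v1 = 1
  h10 : hermForm n F q v1 v0 = 0
  ne : v0 ≠ 0
  c0 : c v0 = v0
  c1 : c v1 = ζ • v1
  zz : hermForm n F q z z ≠ 0
  z0 : hermForm n F q z v0 = 0
  z1 : hermForm n F q z v1 = 0

theorem up_AD (hF : Fintype.card F = q ^ 2) (hc : SI q σ c) (hd : SI q τ d) {ζ ζ' : F}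
    {v0 v1 z v0' v1' z' : Fin n → F} (h : AD q c ζ v0 v1 z) (h' : AD q d ζ' v0' v1' z') (ρ : F)
    (hx : ∀ x : Equiv.Perm (Fin n → F), Semi (σ * τ) x → x v0 = v0 →
      x v1 = (σ ζ' * ζ) • v1 + σ (ζ' * ρ - τ ρ) • v0 → ∀ m : ℕ, ¬ IsScal F (x ^ 3 ^ m)) :
    UP q 3 c d := by
  have h01 : hermForm n F q v0 v1 = 0 := herm_eq_zero_swap hF h.h10
  have h01' : hermForm n F q v0' v1' = 0 := herm_eq_zero_swap hF h'.h10
  have hb1 : hermForm n F q (v1 + ρ • v0) (v1 + ρ • v0) = 1 := by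
    simp only [herm_add_left, herm_add_right hF, herm_smul_left, herm_smul_right, h.h00, h.h11,
      h.h10, h01]
    ring
  have hb01 : hermForm n F q v0 (v1 + ρ • v0) = 0 := by
    simp only [herm_add_right hF, herm_smul_right, h.h00, h01]
    ring
  have hli : ∀ {x y : Fin n → F}, x ≠ 0 → hermForm n F q x x = 0 → hermForm n F q y y = 1 →
      hermForm n F q x y = 0 → LinearIndependent F ![x, y] := by
    intro x y hx hxx hyy hxy
    rw [li2_iff]
    intro a b hab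
    have h1 : hermForm n F q (a • x + b • y) y = 0 := by rw [hab]; exact herm_zero_left _
    rw [herm_add_left, herm_smul_left, herm_smul_left, hxy, hyy, mul_zero, zero_add, mul_one] at h1
    subst h1
    rw [zero_smul, add_zero] at hab
    exact ⟨(smul_eq_zero.1 hab).resolve_right hx, rfl⟩
  refine up_of_family hF hd (a := ![v0', v1']) (b := ![v0, v1 + ρ • v0])
    (hli h'.ne h'.h00 h'.h11 h01') (hli h.ne h.h00 hb1 hb01) ?_ (z := z) h.zz ?_ ?_
  · intro i j
    fin_cases i <;> fin_cases j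
    · exact h'.h00.trans h.h00.symm
    · exact h01'.trans hb01.symm
    · change hermForm n F q v1' v0' = hermForm n F q (v1 + ρ • v0) v0
      rw [herm_swap hF v0' v1', herm_swap hF v0 (v1 + ρ • v0), h01', hb01]
    · exact h'.h11.trans hb1.symm
  · intro i
    fin_cases i
    · exact h.z0
    · change hermForm n F q z (v1 + ρ • v0) = 0
      rw [herm_add_right hF, herm_smul_right, h.z0, h.z1, mul_zero, add_zero]
  · intro d' hd' s hs hds m
    have s0 : act s v0' = v0 := hs 0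
    have s1 : act s v1' = v1 + ρ • v0 := hs 1
    have h1 : d' v0 = v0 := by rw [← s0, hds, h'.c0]
    have h2 : d' (v1 + ρ • v0) = ζ' • (v1 + ρ • v0) := by rw [← s1, hds, h'.c1, act_smul]
    have h3 : d' v1 = ζ' • v1 + (ζ' * ρ - τ ρ) • v0 := by
      rw [hd'.semi.add, hd'.semi.smul, h1] at h2
      rw [eq_sub_of_add_eq h2]
      module
    refine hx (c * d') (hc.semi.mul hd'.semi) ?_ ?_ m
    · rw [Equiv.Perm.mul_apply, h1, h.c0]
    · rw [Equiv.Perm.mul_apply, h3, hc.semi.add, hc.semi.smul, hc.semi.smul, h.c0, h.c1, smul_smul]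

/-- Two diagonal elements. -/
theorem up_AA4 (hF : Fintype.card F = q ^ 2) (h3 : (3 : F) ≠ 0) (hc : SI q (1 : F ≃+* F) c)
    (hd : SI q (1 : F ≃+* F) d) {ζ : F} (hζ0 : ζ ≠ 0) (hζ1 : ζ ≠ 1)
    {v0 v1 z v0' v1' z' : Fin n → F} (h : AD q c ζ v0 v1 z) (h' : AD q d ζ⁻¹ v0' v1' z') :
    UP q 3 c d := by
  have hne : ζ⁻¹ - 1 ≠ 0 := fun h => hζ1 (inv_eq_one.1 (sub_eq_zero.1 h))
  refine up_AD hF hc hd h h' (ζ⁻¹ - 1)⁻¹ ?_
  intro x hx hx0 hx1 m
  simp only [RingAut.one_apply] at hx1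
  have h1 : ζ⁻¹ * (ζ⁻¹ - 1)⁻¹ - (ζ⁻¹ - 1)⁻¹ = 1 := by
    rw [← sub_one_mul, mul_inv_cancel₀ hne]
  rw [inv_mul_cancel₀ hζ0, one_smul, h1, one_smul] at hx1
  exact not_scal_jordan hx h.ne hx0 hx1 (three_cast_pow h3 m)

/-- A field automorphism and a diagonal element. -/
theorem up_CA4 (hF : Fintype.card F = q ^ 2) (h3 : (3 : F) ≠ 0) (hσ : orderOf σ = 3)
    (hc : SI q σ c) (hd : SI q (1 : F ≃+* F) d) {ζ : F} (hζ3 : ζ ^ 3 = 1) (hζ1 : ζ ≠ 1)
    {v0 v1 z v0' v1' z' : Fin n → F} (h : AD q c 1 v0 v1 z) (h' : AD q d ζ v0' v1' z') :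
    UP q 3 c d := by
  have hζ0 : ζ ≠ 0 := by
    rintro rfl
    simp at hζ3
  have hσ3 : σ ^ 3 = 1 := by rw [← hσ, pow_orderOf_eq_one]
  have hσζ : σ ζ = ζ := fixed_of_root Nat.prime_three hσ3 hζ3
  obtain ⟨k, hk⟩ := exists_twisted_sum (σ := σ) (by norm_num) hσ hζ0
  have hζ1' : ζ - 1 ≠ 0 := sub_ne_zero.2 hζ1
  obtain ⟨ρ, hρ⟩ := σ.surjective ((ζ - 1)⁻¹ * k)
  have hkρ : (ζ - 1) * σ ρ = k := by rw [hρ, mul_inv_cancel_left₀ hζ1']
  refine up_AD hF hc hd h h' ρ ?_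
  intro x hx hx0 hx1 m
  have hx' : Semi σ x := by rwa [mul_one] at hx
  have hx1' : x v1 = ζ • v1 + k • v0 := by
    rw [hx1, hσζ, mul_one, map_sub, map_mul, hσζ, RingAut.one_apply, ← hkρ]
    congr 2
    ring
  have hy := pow_tri_sum hx' hσζ hx0 hx1' 3
  have hy0 := pow_fix hx0 3
  rw [hζ3, one_smul] at hy
  have hsy : Semi (1 : F ≃+* F) (x ^ 3) := by
    have := hx'.pow 3
    rwa [hσ3] at this
  refine not_scal_of_pow ?_ m
  intro m
  refine not_scal_jordan hsy (smul_ne_zero hk h.ne) ?_ hy (three_cast_pow h3 m)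
  rw [hsy.smul, hy0]
  rfl

end Cfsg.Agent.H241.WfPsu
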