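import Cfsg.Agent.H241.Wf.PsuD

/-!
# S3826, PSU rows, `p = 3`: a non-cube element and a diagonal element; the main theorem
-/

set_option autoImplicit false

namespace Cfsg.Agent.H241.WfPsu

open Cfsg Cfsg.Agent.LieClassical.HermBasic Cfsg.Agent.LieClassical.HermSiegel
open Cfsg.Agent.H957.T5V Cfsg.Agent.H957.T5Conf Cfsg.Agent.H957.T5Pairs Cfsg.Agent.H957.T5Two
  Cfsg.Agent.H957.T5Semi Cfsg.Agent.H957.T5U Cfsg.Agent.H957.T5Main
open Cfsg.Agent.H177.MeetPSU (rho rho_apply)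
open Module Polynomial

variable {F : Type} [Field F] [Fintype F] {n q : ℕ} {σ τ : F ≃+* F} {c d : Equiv.Perm (Fin n → F)}

/-- The determinant `B(ζ)`. -/
def Bz (l li ζ : F) : F := (1 - ζ) + (1 - ζ) + li - ζ * l

theorem Bz_ne (hF : Fintype.card F = q ^ 2) (h3 : (3 : F) ≠ 0) {l li ζ : F} (hl : l * li = 1)
    (hlq : l ^ q = li) (hζ : ζ ^ 2 + ζ + 1 = 0) : Bz l li ζ ≠ 0 ∨ Bz l li (ζ ^ 2) ≠ 0 := by
  by_contra hcon
  push Not at hcon
  obtain ⟨h1, h2⟩ := hcon
  unfold Bz at h1 h2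
  have h4 : (ζ ^ 2 - ζ) * (2 + l) = 0 := by linear_combination h1 - h2
  have h5 : ζ ^ 2 - ζ ≠ 0 := by
    intro h
    have h6 : ζ * 2 = -1 := by linear_combination hζ - h
    apply h3
    have h7 : (4 : F) * ζ ^ 2 = 1 := by linear_combination (ζ * 2 - 1) * h6
    linear_combination 4 * hζ - 2 * h6 - h7
  have h6 : l = -2 := by
    have := (mul_eq_zero.1 h4).resolve_left h5
    linear_combination this
  have h7 : li = -2 := by
    rw [← hlq, h6, neg_pow_q hF]
    have : (2 : F) ^ q = 2 := by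
      rw [← one_add_one_eq_two, add_pow_q hF, one_pow]
    rw [this]
  rw [h6, h7] at hl
  apply h3
  linear_combination hl

theorem num_lemma (hF : Fintype.card F = q ^ 2) {l li ζ : F} (hl : l * li = 1)
    (hlq : l ^ q = li) (hζ : ζ ^ 2 + ζ + 1 = 0) (hζq : ζ ^ q = ζ ^ 2) (hl1 : l ≠ 1) (hl2 : l ≠ -1)
    (h3 : (3 : F) ≠ 0) (hB : Bz l li ζ ≠ 0) : ∃ s γ : F, s ^ q = -s ∧ γ ^ q = γ ∧ γ ≠ 0 ∧
      s * s - γ ≠ 0 ∧ 2 * (1 - s) - 1 - li * (1 + s) = (ζ - 1) * γ := by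
  have hζ3 : ζ ^ 3 = 1 := by linear_combination (ζ - 1) * hζ
  have hζ0 : ζ ≠ 0 := by
    rintro rfl
    simp at hζ
  have hζ1 : ζ - 1 ≠ 0 := by
    intro h
    have h1 : ζ = 1 := sub_eq_zero.1 h
    rw [h1] at hζ
    apply h3
    linear_combination hζ
  have hl0 : l ≠ 0 := by
    rintro rfl
    simp at hl
  have hli0 : li ≠ 0 := by
    rintro rfl
    simp at hl
  have hliq : li ^ q = l := by rw [← hlq, pow_q_pow_q hF]
  set B := Bz l li ζ with hBdef
  have hBe : B = (1 - ζ) + (1 - ζ) + li - ζ * l := rfl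
  clear_value B
  have hBq : B ^ q * ζ = -B := by
    rw [hBe, sub_pow_q hF, add_pow_q hF, add_pow_q hF, sub_pow_q hF, one_pow, hζq, hliq, mul_pow,
      hζq, hlq]
    linear_combination (-2 - li) * hζ3
  set A := (1 - l) * (ζ - li) with hA
  have hAq : A ^ q * ζ = A := by
    rw [hA, mul_pow, sub_pow_q hF, sub_pow_q hF, one_pow, hlq, hliq, hζq]
    linear_combination (1 - li) * hζ3 - (1 - ζ) * hl
  clear_value A
  set s := A * B⁻¹ with hs
  have hsB : s * B = A := by rw [hs, mul_assoc, inv_mul_cancel₀ hB, mul_one]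
  clear_value s
  have hsq : s ^ q = -s := by
    have h1 : s ^ q * B ^ q = A ^ q := by rw [← mul_pow, hsB]
    apply mul_right_cancel₀ hB
    have h2 : s ^ q * B = -(s ^ q * B ^ q * ζ) := by linear_combination (s ^ q) * hBq
    rw [h2, h1]
    linear_combination (-1 : F) * hAq + hsB
  set N := ζ * (l - 1) ^ 2 * li with hN
  have hNq : N ^ q = N * ζ := by
    rw [hN, mul_pow, mul_pow, ← pow_mul, mul_comm 2 q, pow_mul, sub_pow_q hF, one_pow, hlq, hliq,
      hζq]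
    linear_combination ζ ^ 2 * (li - l) * hl
  set D := B * (ζ - 1) with hD
  have hD0 : D ≠ 0 := mul_ne_zero hB hζ1
  have hDq : D ^ q = D * ζ := by
    rw [hD, mul_pow, sub_pow_q hF, one_pow, hζq]
    linear_combination (ζ ^ 2 * (ζ ^ 2 - 1)) * hBq - (B ^ q * (ζ ^ 2 - 1) + B * ζ) * hζ3
  set γ := N * D⁻¹ with hγ
  have hγD : γ * D = N := by rw [hγ, mul_assoc, inv_mul_cancel₀ hD0, mul_one]
  have hN0 : N ≠ 0 := mul_ne_zero (mul_ne_zero hζ0 (pow_ne_zero _ (sub_ne_zero.2 hl1))) hli0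
  have hγq : γ ^ q = γ := by
    have h1 : γ ^ q * D ^ q = N ^ q := by rw [← mul_pow, hγD]
    rw [hDq, hNq, ← hγD] at h1
    apply mul_right_cancel₀ (mul_ne_zero hD0 hζ0)
    linear_combination h1
  refine ⟨s, γ, hsq, hγq, mul_ne_zero hN0 (inv_ne_zero hD0), ?_, ?_⟩
  · -- `δ B² l² (ζ - 1) = (l - 1)² (l² - 1)`
    have h1 : (s * s - γ) * (B ^ 2 * l ^ 2 * (ζ - 1)) = (l - 1) ^ 2 * (l ^ 2 - 1) := by
      have h2 : (s * s - γ) * (B ^ 2 * l ^ 2 * (ζ - 1))
          = (s * B) ^ 2 * l ^ 2 * (ζ - 1) - γ * D * B * l ^ 2 := by rw [hD]; ring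
      have e1 : (ζ - li) * l = ζ * l - 1 := by linear_combination (-1 : F) * hl
      have e2 : li * ((1 - ζ) + (1 - ζ) + li - ζ * l) * l ^ 2
          = 2 * (1 - ζ) * l + 1 - ζ * l ^ 2 := by
        linear_combination (2 * (1 - ζ) * l + (l * li + 1) - ζ * l ^ 2) * hl
      rw [h2, hsB, hγD, hA, hN, hBe]
      linear_combination ((l - 1) ^ 2 * (ζ - 1) * ((ζ - li) * l + (ζ * l - 1))) * e1
        - (ζ * (l - 1) ^ 2) * e2 + ((l - 1) ^ 2 * l ^ 2) * hζ3
    intro h0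
    rw [h0, zero_mul] at h1
    have h4 : (l - 1) ^ 2 ≠ 0 := pow_ne_zero _ (sub_ne_zero.2 hl1)
    have h5 := (mul_eq_zero.1 h1.symm).resolve_left h4
    have h6 : (l - 1) * (l + 1) = 0 := by linear_combination h5
    rcases mul_eq_zero.1 h6 with h | h
    · exact hl1 (sub_eq_zero.1 h)
    · exact hl2 (eq_neg_of_add_eq_zero_left h)
  · apply mul_right_cancel₀ hB
    have h2 : (ζ - 1) * γ * B = γ * D := by rw [hD]; ring
    have h4 : (2 * (1 - s) - 1 - li * (1 + s)) * B = (1 - li) * B - (2 + li) * (s * B) := by ring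
    rw [h2, h4, hγD, hsB, hN, hA, hBe]
    linear_combination (4 * ζ - 2 - li - ζ * l) * hl

/-- Orthonormal eigenvectors with eigenvalues `1, 1, ζ`. -/
structure AE (q : ℕ) (d : Equiv.Perm (Fin n → F)) (ζ : F) (x : Fin 3 → (Fin n → F)) : Prop where
  on : ∀ i j, hermForm n F q (x i) (x j) = if i = j then 1 else 0
  d0 : d (x 0) = x 0
  d1 : d (x 1) = x 1
  d2 : d (x 2) = ζ • x 2

theorem ae_eig (hF : Fintype.card F = q ^ 2) (hpq : 3 ∣ q + 1) (hn : 4 ≤ n)
    (hc : SI q (1 : F ≃+* F) c) (hcp : c ^ 3 = 1) (hns : ¬ IsScal F c) :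
    ∃ s : Fˣ, (s : F) * (s : F) ^ q = 1 ∧ ∃ ζ x, ζ ^ 3 = 1 ∧ ζ ≠ 1 ∧ AE q (smulA s c) ζ x := by
  obtain ⟨b, η, hb, hη, hη3, hηq, hne⟩ := exists_eig_data hF Nat.prime_three hpq (by omega) hc hcp
    hns
  obtain ⟨i, j, k, hij, hηij, hηk⟩ := exists_pair hn hη3 hne
  have hik : i ≠ k := by rintro rfl; exact hηk rfl
  have hjk : j ≠ k := by rintro rfl; exact hηk hηij.symm
  have hηi0 : η i ≠ 0 := by
    intro h
    have := hη3 i
    rw [h] at this
    simp at this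
  have hs : ∀ v, smulA (Units.mk0 (η i) hηi0)⁻¹ c v = (η i)⁻¹ • c v := fun v => by
    rw [smulA_apply, Units.val_inv_eq_inv_val, Units.val_mk0]
  refine ⟨(Units.mk0 (η i) hηi0)⁻¹, ?_, (η i)⁻¹ * η k, ![b i, b j, b k], ?_, ?_, ⟨?_, ?_, ?_, ?_⟩⟩
  · rw [Units.val_inv_eq_inv_val, Units.val_mk0, inv_pow, ← mul_inv, hηq, inv_one]
  · rw [mul_pow, inv_pow, hη3, hη3, inv_one, one_mul]
  · intro h
    apply hηk
    have h1 := congrArg (fun x => η i * x) h
    simp only [mul_one] at h1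
    rwa [mul_inv_cancel_left₀ hηi0] at h1
  · intro x y
    fin_cases x <;> fin_cases y <;> simp [hb, hij, hij.symm, hik, hik.symm, hjk, hjk.symm]
  · change smulA (Units.mk0 (η i) hηi0)⁻¹ c (b i) = b i
    rw [hs, hη, inv_smul_smul₀ hηi0]
  · change smulA (Units.mk0 (η i) hηi0)⁻¹ c (b j) = b j
    rw [hs, hη, ← hηij, inv_smul_smul₀ hηi0]
  · change smulA (Units.mk0 (η i) hηi0)⁻¹ c (b k) = ((η i)⁻¹ * η k) • b k
    rw [hs, hη, smul_smul]

theorem AE.pow (hd : SI q (1 : F ≃+* F) d) {ζ : F} {x : Fin 3 → (Fin n → F)} (h : AE q d ζ x)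
    (j : ℕ) : AE q (d ^ j) (ζ ^ j) x where
  on := h.on
  d0 := pow_fix h.d0 j
  d1 := pow_fix h.d1 j
  d2 := eig_pow hd h.d2 j

/-- A non-cube element and a diagonal element: configuration `R`. -/
theorem up_BA_aux (hF : Fintype.card F = q ^ 2) (h3 : (3 : F) ≠ 0) (hn : 5 ≤ n) (hpq : 3 ∣ q + 1)
    (hc : SI q (1 : F ≃+* F) c) {l : F} (h : NC q c l)
    (hd : SI q (1 : F ≃+* F) d) {ζ : F} (hζ : ζ ^ 2 + ζ + 1 = 0) {x : Fin 3 → (Fin n → F)}
    (hx : AE q d ζ x) (hB : Bz l (l ^ q) ζ ≠ 0) : UP q 3 c d := by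
  have hpF : ((3 : ℕ) : F) ≠ 0 := by exact_mod_cast h3
  obtain ⟨hll, hl, hlp⟩ := h
  have hζ3 : ζ ^ 3 = 1 := by linear_combination (ζ - 1) * hζ
  have hζ1 : ζ - 1 ≠ 0 := by
    intro h
    have h1 : ζ = 1 := sub_eq_zero.1 h
    rw [h1] at hζ
    apply h3
    linear_combination hζ
  have hζq : ζ ^ q = ζ ^ 2 := by
    obtain ⟨m, hm⟩ := hpq
    have h1 : ζ * ζ ^ q = 1 := by
      rw [← pow_succ', hm, pow_mul, hζ3, one_pow]
    calc ζ ^ q = ζ ^ 3 * ζ ^ q := by rw [hζ3, one_mul]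
      _ = ζ ^ 2 * (ζ * ζ ^ q) := by ring
      _ = ζ ^ 2 := by rw [h1, mul_one]
  have hl1 : l ≠ 1 := fun h => hlp 1 (by rw [h, one_pow])
  have hl2 : l ≠ -1 := fun h => hlp (-1) (by rw [h]; ring)
  obtain ⟨s, γ, hs, hγq, hγ0, hδ0, hY⟩ := num_lemma hF hll rfl hζ hζq hl1 hl2 h3 hB
  have hδq : (s * s - γ) ^ q = s * s - γ := by
    rw [sub_pow_q hF, mul_pow, hs, hγq]; ring
  obtain ⟨y, hy0, hy⟩ := exists_norm_eq_ne hF hδq hδ0
  obtain ⟨w, hw0, hw⟩ := exists_norm_eq_ne hF hγq hγ0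
  -- the vector for `c`
  have hNT := nt_two hF (by omega) Nat.prime_three (by norm_num) hpq hc hll hl hlp
  have hdeg : (X ^ 3 - C l : F[X]).natDegree = 3 := natDegree_X_pow_sub_C
  obtain ⟨z, hz, hzli⟩ := hNT.get hF hpF hc (m := 1) (by rw [hdeg])
    (fun k => if k = 0 then 1 else 1 + s) (by simp)
  have z0 : hermForm n F q z z = 1 := by
    have := hz 0 (by omega)
    simpa using this
  have z1 : hermForm n F q (c z) z = 1 + s := by
    have := hz 1 (by omega)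
    simpa using this
  have hzne : z ≠ 0 := by
    rintro rfl
    rw [herm_zero_left] at z0
    exact zero_ne_one z0
  have hli := hzli hzne (by rw [hdeg])
  have hcc : ∀ x y, hermForm n F q (c x) (c y) = hermForm n F q x y := fun x y => hc.herm x y
  -- shift: `t = c z`, so `c⁻¹ t = z`
  have z1' : hermForm n F q z (c z) = 1 - s := by
    rw [herm_swap hF (c z) z, z1, add_pow_q hF, one_pow, hs]; ring
  have hc3 : c (c (c z)) = l • z := by
    rw [← hl]; rfl
  have z2 : hermForm n F q (c (c z)) z = l * (1 - s) := by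
    have h1 : hermForm n F q (c (c (c z))) (c z) = hermForm n F q (c (c z)) z := hcc _ _
    rw [← h1, hc3, herm_smul_left, z1']
  have z2' : hermForm n F q z (c (c z)) = l ^ q * (1 + s) := by
    rw [herm_swap hF (c (c z)) z, z2, mul_pow, sub_pow_q hF, one_pow, hs]; ring
  -- target vectors: `c t - t`, `t - c⁻¹ t`, `t`
  have hbli : LinearIndependent F ![c (c z) - c z, c z - z, c z] := by
    rw [li3_iff] at hli ⊢
    intro x y w h
    obtain ⟨e1, e2, e3⟩ := hli (-y) (-x + y + w) x (by rw [← h]; module)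
    have e1' : y = 0 := neg_eq_zero.1 e1
    subst e1' e3
    exact ⟨rfl, rfl, by simpa using e2⟩
  -- source vectors
  set u0 : Fin n → F := s • x 0 + y • x 1 + w • x 2 with hu0
  have hdu0 : d u0 = s • x 0 + y • x 1 + (w * ζ) • x 2 := by
    rw [hu0, hd.semi.add, hd.semi.add, hd.semi.smul, hd.semi.smul, hd.semi.smul, hx.d0, hx.d1,
      hx.d2, smul_smul]
    rfl
  have on := hx.on
  have o00 : hermForm n F q (x 0) (x 0) = 1 := by rw [on]; simp
  have o11 : hermForm n F q (x 1) (x 1) = 1 := by rw [on]; simp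
  have o22 : hermForm n F q (x 2) (x 2) = 1 := by rw [on]; simp
  have o01 : hermForm n F q (x 0) (x 1) = 0 := by rw [on]; simp
  have o02 : hermForm n F q (x 0) (x 2) = 0 := by rw [on]; simp
  have o12 : hermForm n F q (x 1) (x 2) = 0 := by rw [on]; simp
  have o10 : hermForm n F q (x 1) (x 0) = 0 := by rw [on]; simp
  have o20 : hermForm n F q (x 2) (x 0) = 0 := by rw [on]; simp
  have o21 : hermForm n F q (x 2) (x 1) = 0 := by rw [on]; simp
  have hali : LinearIndependent F ![u0, d u0, x 0] := by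
    rw [hdu0, hu0, li3_iff]
    intro a b e h
    have k1 := congrArg (fun v => hermForm n F q v (x 1)) h
    have k2 := congrArg (fun v => hermForm n F q v (x 2)) h
    have k0 := congrArg (fun v => hermForm n F q v (x 0)) h
    simp only [herm_add_left, herm_smul_left, herm_zero_left, o00, o11, o22, o01, o02, o12, o10,
      o20, o21, mul_zero, add_zero, zero_add, mul_one] at k0 k1 k2
    have k3 : (a + b) * y = 0 := by linear_combination k1
    have k4 : a + b = 0 := (mul_eq_zero.1 k3).resolve_right hy0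
    have k5 : (b * (ζ - 1)) * w = 0 := by linear_combination k2 - w * k4
    have k6 : b = 0 := (mul_eq_zero.1 ((mul_eq_zero.1 k5).resolve_right hw0)).resolve_right hζ1
    subst k6
    have k7 : a = 0 := by simpa using k4
    subst k7
    exact ⟨rfl, rfl, by simpa using k0⟩
  have k01 : hermForm n F q (c z - z) (c (c z) - c z) = (ζ - 1) * γ := by
    simp only [herm_sub_left, herm_sub_right hF, hcc, z0, z1, z1', z2']
    linear_combination hY
  have k00 : hermForm n F q (c (c z) - c z) (c (c z) - c z) = 0 := by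
    simp only [herm_sub_left, herm_sub_right hF, hcc, z0, z1, z1']
    ring
  have hk01 : hermForm n F q (c (c z) - c z) (c z - z) ≠ 0 := by
    rw [herm_swap hF (c z - z), k01]
    exact pow_ne_zero _ (mul_ne_zero hζ1 hγ0)
  obtain ⟨z', hz', hzb⟩ := exists_z hF hbli (by omega) (e := c (c z) - c z) (f := c z - z)
    (Submodule.subset_span ⟨0, rfl⟩) (Submodule.subset_span ⟨1, rfl⟩) k00 hk01
  have k11 : hermForm n F q (c z - z) (c z - z) = 0 := by
    simp only [herm_sub_left, herm_sub_right hF, hcc, z0, z1, z1']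
    ring
  have k02 : hermForm n F q (c (c z) - c z) (c z) = s := by
    simp only [herm_sub_left, hcc, z0, z1]
    ring
  have k12 : hermForm n F q (c z - z) (c z) = s := by
    simp only [herm_sub_left, hcc, z0, z1']
    ring
  have m00 : hermForm n F q u0 u0 = 0 := by
    rw [hu0]
    simp only [herm_add_left, herm_add_right hF, herm_smul_left, herm_smul_right, o00, o11, o22,
      o01, o02, o12, o10, o20, o21, hs]
    linear_combination hy + hw
  have m11 : hermForm n F q (d u0) (d u0) = 0 := by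
    rw [hd.herm, m00]; rfl
  have m10 : hermForm n F q (d u0) u0 = (ζ - 1) * γ := by
    rw [hdu0, hu0]
    simp only [herm_add_left, herm_add_right hF, herm_smul_left, herm_smul_right, o00, o11, o22,
      o01, o02, o12, o10, o20, o21, hs]
    linear_combination hy + ζ * hw
  have m02 : hermForm n F q u0 (x 0) = s := by
    rw [hu0]
    simp only [herm_add_left, herm_smul_left, o00, o10, o20]
    ring
  have m12 : hermForm n F q (d u0) (x 0) = s := by
    rw [hdu0]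
    simp only [herm_add_left, herm_smul_left, o00, o10, o20]
    ring
  refine up_of_family hF hd (a := ![u0, d u0, x 0]) hali hbli ?_ hz' hzb ?_
  · intro i j
    fin_cases i <;> fin_cases j
    · exact m00.trans k00.symm
    · change hermForm n F q u0 (d u0) = hermForm n F q (c (c z) - c z) (c z - z)
      rw [herm_swap hF (d u0) u0, herm_swap hF (c z - z), m10, k01]
    · exact m02.trans k02.symm
    · exact m10.trans k01.symm
    · exact m11.trans k11.symm
    · exact m12.trans k12.symm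
    · change hermForm n F q (x 0) u0 = hermForm n F q (c z) (c (c z) - c z)
      rw [herm_swap hF u0, herm_swap hF (c (c z) - c z), m02, k02]
    · change hermForm n F q (x 0) (d u0) = hermForm n F q (c z) (c z - z)
      rw [herm_swap hF (d u0), herm_swap hF (c z - z), m12, k12]
    · change hermForm n F q (x 0) (x 0) = hermForm n F q (c z) (c z)
      rw [o00, hcc, z0]
  · intro d' hd' r hr hds m
    have s0 : act r u0 = c (c z) - c z := hr 0
    have s1 : act r (d u0) = c z - z := hr 1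
    have s2 : act r (x 0) = c z := hr 2
    refine not_scal_jordan (hc.semi.mul hd'.semi) (v0 := c (c z) - c z) (v1 := c z) ?_ ?_ ?_
      (three_cast_pow h3 m)
    · exact hbli.ne_zero 0
    · rw [Equiv.Perm.mul_apply]
      conv_lhs => rw [← s0, hds, s1, hc.semi.sub]
    · rw [Equiv.Perm.mul_apply]
      conv_lhs => rw [← s2, hds, hx.d0, s2]
      module

/-! ### The main theorem -/

section core

variable (hF : Fintype.card F = q ^ 2) (h3 : (3 : F) ≠ 0)

include hF h3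

theorem NC.six_le (hn : 4 ≤ n) (hpq : 3 ∣ q + 1) (hc : SI q (1 : F ≃+* F) c) {l : F}
    (h : NC q c l) : 6 ≤ n :=
  (ti_B hF h3 hn hpq hc h).le hF

theorem NC.scal {l : F} (h : NC q c l) : IsScal F (c ^ 3) := ⟨l, h.cl⟩

theorem up3_BA (hn : 4 ≤ n) (hpq : 3 ∣ q + 1) (hc : SI q (1 : F ≃+* F) c) {l : F} (h : NC q c l)
    (hd : SI q (1 : F ≃+* F) d) (hdp : d ^ 3 = 1) (hdn : ¬ IsScal F d) : UP q 3 c d := by
  have h6 := h.six_le hF h3 hn hpq hc
  obtain ⟨s, hs, ζ, x, hζ3, hζ1, hx⟩ := ae_eig hF hpq hn hd hdp hdn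
  refine UP.of_scl hc hd (Scl.refl c) (scl_smulA s d) ?_
  have hζ : ζ ^ 2 + ζ + 1 = 0 := by
    have h5 : (ζ - 1) * (ζ ^ 2 + ζ + 1) = 0 := by linear_combination hζ3
    exact (mul_eq_zero.1 h5).resolve_left (sub_ne_zero.2 hζ1)
  rcases Bz_ne hF h3 h.ll rfl hζ with hB | hB
  · exact up_BA_aux hF h3 (by omega) hpq hc h (hd.smulA hs) hζ hx hB
  · refine UP.of_pow 1 2 ?_
    rw [pow_one]
    have hsd : SI q (1 : F ≃+* F) ((smulA s d) ^ 2) := by
      have := (hd.smulA hs).pow 2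
      rwa [one_pow] at this
    have hζ' : (ζ ^ 2) ^ 2 + ζ ^ 2 + 1 = 0 := by linear_combination hζ + ζ * hζ3
    exact up_BA_aux hF h3 (by omega) hpq hc h hsd hζ' (hx.pow (hd.smulA hs) 2) hB

theorem up3_BB (hn : 4 ≤ n) (hpq : 3 ∣ q + 1) (hc : SI q (1 : F ≃+* F) c) {l : F} (h : NC q c l)
    (hd : SI q (1 : F ≃+* F) d) {l' : F} (h' : NC q d l') : UP q 3 c d :=
  up_ti3 hF h3 hc hd le_rfl (ti_B hF h3 hn hpq hc h) (ti_B hF h3 hn hpq hd h')
    ⟨l, h.cl⟩ ⟨l', h'.cl⟩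

theorem up3_BC (hn : 4 ≤ n) (hpq : 3 ∣ q + 1) (hc : SI q (1 : F ≃+* F) c) {l : F} (h : NC q c l)
    (hτ : orderOf τ = 3) (hd : SI q τ d) (hdp : d ^ 3 = 1) : UP q 3 c d := by
  have h6 := h.six_le hF h3 hn hpq hc
  exact up_ti3 hF h3 hc hd le_rfl (ti_B hF h3 hn hpq hc h)
    (ti_semi hF Nat.prime_three le_rfl hτ hd hdp (m := 3) (by norm_num) (by omega))
    ⟨l, h.cl⟩ (isScal_of_pow_one hdp)

/-- **Main theorem** for `n ≥ 4`, and for `n = 3` if `3 ∣ q - 1`. -/
theorem up_main3 (hn : 3 ≤ n) (hn4 : 4 ≤ n ∨ 3 ∣ q - 1) (hc : SI q σ c) (hcp : IsScal F (c ^ 3))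
    (hcn : ¬ IsScal F c) (hd : SI q τ d) (hdp : IsScal F (d ^ 3)) (hdn : ¬ IsScal F d) :
    UP q 3 c d := by
  have hp := Nat.prime_three
  have hp2 : (3 : ℕ) ≠ 2 := by norm_num
  have hn0 : 0 < n := by omega
  have hpF : ((3 : ℕ) : F) ≠ 0 := by exact_mod_cast h3
  have hq0 := q_pos hF
  have : Fact (Nat.Prime 3) := ⟨hp⟩
  have h4 : 3 ∣ q + 1 → 4 ≤ n := by
    intro h
    rcases hn4 with h1 | h1
    · exact h1
    · exfalso; omega
  have hord : ∀ {θ : F ≃+* F} {x : Equiv.Perm (Fin n → F)}, SI q θ x → IsScal F (x ^ 3) →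
      θ = 1 ∨ orderOf θ = 3 := by
    intro θ x hx ⟨a, ha⟩
    have h1 : θ ^ 3 = 1 := by
      have hv : ∃ v : Fin n → F, v ≠ 0 := ⟨fun _ => 1, fun h => one_ne_zero (congrFun h ⟨0, hn0⟩)⟩
      obtain ⟨v, hv⟩ := hv
      have ha0 : a ≠ 0 := by
        rintro rfl
        apply hv
        have h2 := ha v
        rw [zero_smul] at h2
        exact (x ^ 3).injective (h2.trans (hx.pow 3).semi.zero.symm)
      ext b
      have h2 := (hx.pow 3).semi.smul b v
      rw [ha, ha, smul_smul, smul_smul, mul_comm a b] at h2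
      have h3 : (b * a - (θ ^ 3) b * a) • v = 0 := by rw [sub_smul, h2, sub_self]
      have h4 := (smul_eq_zero.1 h3).resolve_right hv
      have h5 : b * a = (θ ^ 3) b * a := sub_eq_zero.1 h4
      exact (mul_right_cancel₀ ha0 h5).symm
    by_cases h : θ = 1
    · exact Or.inl h
    · exact Or.inr (orderOf_eq_prime h1 h)
  have hnc : ∀ {x : Equiv.Perm (Fin n → F)}, (∃ l : F, l * l ^ q = 1 ∧ (∀ v, (x ^ 3) v = l • v) ∧
      ∀ t : F, t ^ 3 ≠ l) → ∃ l, NC q x l := by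
    rintro x ⟨l, h1, h2, h3⟩
    exact ⟨l, h1, h2, h3⟩
  rcases hord hc hcp with rfl | hσ <;> rcases hord hd hdp with rfl | hτ
  · rcases scale_lin hF hn0 hp hp2 hc hcp with ⟨s, hs, h1⟩ | ⟨hpq, h1⟩ <;>
      rcases scale_lin hF hn0 hp hp2 hd hdp with ⟨t, ht, h2⟩ | ⟨hpq', h2⟩
    · exact UP.of_smulA hc hd s t (up3_AA hF h3 hn hn4 (hc.smulA hs) h1 (not_isScal_smulA hcn)
        (hd.smulA ht) h2 (not_isScal_smulA hdn))
    · obtain ⟨l, h2⟩ := hnc h2
      refine UP.of_scl hc hd (scl_smulA s c) (Scl.refl d) (UP.symm hd ?_)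
      exact up3_BA hF h3 (h4 hpq') hpq' hd h2 (hc.smulA hs) h1 (not_isScal_smulA hcn)
    · obtain ⟨l, h1⟩ := hnc h1
      refine UP.of_scl hc hd (Scl.refl c) (scl_smulA t d) ?_
      exact up3_BA hF h3 (h4 hpq) hpq hc h1 (hd.smulA ht) h2 (not_isScal_smulA hdn)
    · obtain ⟨l, h1⟩ := hnc h1
      obtain ⟨l', h2⟩ := hnc h2
      exact up3_BB hF h3 (h4 hpq) hpq hc h1 hd h2
  · obtain ⟨t, ht, h2⟩ := scale_semi hF hn0 hp hp2 hτ hd hdp
    rcases scale_lin hF hn0 hp hp2 hc hcp with ⟨s, hs, h1⟩ | ⟨hpq, h1⟩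
    · exact UP.of_smulA hc hd s t (UP.symm (hd.smulA ht) (up3_CA hF h3 hn hn4 hτ (hd.smulA ht) h2
        (hc.smulA hs) h1 (not_isScal_smulA hcn)))
    · obtain ⟨l, h1⟩ := hnc h1
      exact UP.of_scl hc hd (Scl.refl c) (scl_smulA t d)
        (up3_BC hF h3 (h4 hpq) hpq hc h1 hτ (hd.smulA ht) h2)
  · obtain ⟨s, hs, h1⟩ := scale_semi hF hn0 hp hp2 hσ hc hcp
    rcases scale_lin hF hn0 hp hp2 hd hdp with ⟨t, ht, h2⟩ | ⟨hpq, h2⟩
    · exact UP.of_smulA hc hd s t (up3_CA hF h3 hn hn4 hσ (hc.smulA hs) h1 (hd.smulA ht) h2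
        (not_isScal_smulA hdn))
    · obtain ⟨l, h2⟩ := hnc h2
      exact UP.symm hd (UP.of_scl hd hc (Scl.refl d) (scl_smulA s c)
        (up3_BC hF h3 (h4 hpq) hpq hd h2 hσ (hc.smulA hs) h1))
  · obtain ⟨s, hs, h1⟩ := scale_semi hF hn0 hp hp2 hσ hc hcp
    obtain ⟨t, ht, h2⟩ := scale_semi hF hn0 hp hp2 hτ hd hdp
    exact UP.of_smulA hc hd s t (up3_CC hF h3 hn hσ (hc.smulA hs) h1 hτ (hd.smulA ht) h2)

end core

end Cfsg.Agent.H241.WfPsu
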